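import Mathlib
import Cfsg.Agent.Lib.H54.RA1

set_option autoImplicit false
set_option maxRecDepth 100000
set_option linter.unusedVariables false

/-! S3330, piece FIN (helper9, backup). -/

namespace H9.RFin

open Equiv Subgroup H54.RA

theorem dihe {G : Type*} [Group G] [Finite G] {s t : G} (hs : s * s = 1) (ht : t * t = 1) :
    (∃ g, g * s * g⁻¹ = t) ∨ ∃ z : G, z ≠ 1 ∧ z * z = 1 ∧ z * s = s * z ∧ z * t = t * z := by
  obtain ⟨c, hc⟩ : ∃ c, c = s * t := ⟨_, rfl⟩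
  have hsi : s⁻¹ = s := inv_eq_of_mul_eq_one_left hs
  have hti : t⁻¹ = t := inv_eq_of_mul_eq_one_left ht
  have htc : t = s * c := by rw [hc, ← mul_assoc, hs, one_mul]
  have hcs : s * c * s⁻¹ = c⁻¹ := by
    rw [hc, mul_inv_rev, hsi, hti]
    calc s * (s * t) * s = (s * s) * t * s := by group
      _ = t * s := by rw [hs, one_mul]
  have hpow : ∀ k : ℕ, s * c ^ k * s⁻¹ = (c ^ k)⁻¹ := by
    intro k
    rw [← conj_pow, hcs, inv_pow]
  rcases Nat.even_or_odd' (orderOf c) with ⟨k, hk | hk⟩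
  · right
    have hpos : 0 < orderOf c := orderOf_pos c
    refine ⟨c ^ k, ?_, ?_, ?_, ?_⟩
    · intro h
      have := orderOf_dvd_of_pow_eq_one h
      have := Nat.le_of_dvd (by omega) this
      omega
    · rw [← pow_add, ← two_mul, ← hk, pow_orderOf_eq_one]
    · have h2 : c ^ k * c ^ k = 1 := by rw [← pow_add, ← two_mul, ← hk, pow_orderOf_eq_one]
      have h3 := hpow k
      rw [inv_eq_of_mul_eq_one_left h2] at h3
      exact (mul_inv_eq_iff_eq_mul.1 h3).symm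
    · have h2 : c ^ k * c ^ k = 1 := by rw [← pow_add, ← two_mul, ← hk, pow_orderOf_eq_one]
      have h3 := hpow k
      rw [inv_eq_of_mul_eq_one_left h2] at h3
      have c1 : Commute (c ^ k) s := (mul_inv_eq_iff_eq_mul.1 h3).symm
      have c2 : Commute (c ^ k) c := (Commute.refl c).pow_left k
      rw [htc]
      exact (c1.mul_right c2).eq
  · left
    refine ⟨c ^ k, ?_⟩
    have h1 : c ^ k * s = s * (c ^ k)⁻¹ := by
      have h3 : s * (c ^ k)⁻¹ * s⁻¹ = c ^ k := by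
        calc s * (c ^ k)⁻¹ * s⁻¹ = (s * c ^ k * s⁻¹)⁻¹ := by group
          _ = c ^ k := by rw [hpow, inv_inv]
      exact (mul_inv_eq_iff_eq_mul.1 h3).symm
    rw [h1, htc]
    have h2 : c ^ (2 * k + 1) = 1 := by rw [← hk, pow_orderOf_eq_one]
    have h3 : (c ^ k)⁻¹ * (c ^ k)⁻¹ = c := by
      rw [← mul_inv_rev, ← pow_add, ← two_mul]
      rw [inv_eq_iff_mul_eq_one, ← pow_succ]
      exact h2
    rw [mul_assoc, h3]

theorem inv5 : ∀ a : Perm (Fin 5), a * a = 1 → a = 1 ∨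
    (Perm.sign a = 1 ∧ ∃ c : Perm (Fin 5), Perm.sign c = 1 ∧ c * a * c⁻¹ = b0) ∨
    (Perm.sign a = -1 ∧ ∃ c : Perm (Fin 5), Perm.sign c = 1 ∧ c * a * c⁻¹ = t5) := by
  decide +kernel

variable {G : Type*} [Group G]

lemma nrange {Φ : EE →* G} {n : G} (h : TM Φ n) {x : G} (hx : x ∈ Φ.range) : n * x * n⁻¹ ∈ Φ.range := by
  obtain ⟨⟨⟨a, b⟩, hab⟩, rfl⟩ := hx
  have e1 : n * Φ ⟨(a, b), hab⟩ * n⁻¹ = Φ (mkE b a (Eq.symm hab)) := h.nc a b hab
  rw [e1]
  exact ⟨_, rfl⟩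

/-- `Φ(EE)⟨n⟩` -/
def MM {Φ : EE →* G} {n : G} (h : TM Φ n) : Subgroup G where
  carrier := {g | g ∈ Φ.range ∨ g * n ∈ Φ.range}
  one_mem' := Or.inl (one_mem _)
  mul_mem' := by
    have hn : n⁻¹ = n := inv_eq_of_mul_eq_one_left h.nn
    rintro a b (ha | ha) (hb | hb)
    · exact Or.inl (mul_mem ha hb)
    · right
      rw [mul_assoc]; exact mul_mem ha hb
    · right
      have : a * b * n = (a * n) * (n * b * n⁻¹) := by
        calc a * b * n = a * (n * n) * b * n := by rw [h.nn, mul_one]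
          _ = a * (n * n) * b * n⁻¹ := by rw [hn]
          _ = _ := by group
      rw [this]
      exact mul_mem ha (nrange h hb)
    · left
      have : a * b = (a * n) * (n * (b * n) * n⁻¹) := by
        calc a * b = a * (n * n) * b := by rw [h.nn, mul_one]
          _ = _ := by group
      rw [this]
      exact mul_mem ha (nrange h hb)
  inv_mem' := by
    have hn : n⁻¹ = n := inv_eq_of_mul_eq_one_left h.nn
    rintro a (ha | ha)
    · exact Or.inl (inv_mem ha)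
    · right
      have : a⁻¹ * n = n * (a * n)⁻¹ * n⁻¹ := by
        calc a⁻¹ * n = a⁻¹ * n⁻¹ := by rw [hn]
          _ = _ := by group
      rw [this]
      exact nrange h (inv_mem ha)

lemma mem_MM {Φ : EE →* G} {n : G} (h : TM Φ n) {g : G} :
    g ∈ MM h ↔ (g ∈ Φ.range ∨ g * n ∈ Φ.range) := Iff.rfl

lemma sgc {a b c d : Perm (Fin 5)} (hab : Perm.sign a = Perm.sign b) (hcd : Perm.sign c = Perm.sign d) :
    Perm.sign (c * a * c⁻¹) = Perm.sign (d * b * d⁻¹) := by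
  rw [map_mul, map_mul, map_mul, map_mul, map_inv, map_inv, hab, hcd]

lemma conjE (Φ : EE →* G) {a b c d : Perm (Fin 5)} (hab : Perm.sign a = Perm.sign b)
    (hcd : Perm.sign c = Perm.sign d) :
    Φ (mkE c d hcd) * Φ (mkE a b hab) * (Φ (mkE c d hcd))⁻¹ =
      Φ (mkE (c * a * c⁻¹) (d * b * d⁻¹) (sgc hab hcd)) := by
  rw [← map_mul, ← map_inv, ← map_mul]
  rfl

theorem fin [Finite G] {Φ : EE →* G} {n : G} (h : TM Φ n)
    (hu : ∀ g : G, g * Φ (mkE b0 1 sb0) = Φ (mkE b0 1 sb0) * g → g ∈ Φ.range)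
    (hw : ∀ g : G, g * Φ (mkE b0 b0 rfl) = Φ (mkE b0 b0 rfl) * g → g ∈ Φ.range ∨ g * n ∈ Φ.range)
    (g : G) : g ∈ Φ.range ∨ g * n ∈ Φ.range := by
  by_contra hg
  have hb0 : b0 * b0 = 1 := by decide +kernel
  have ht5 : t5 * t5 = 1 := by decide +kernel
  have htE : tE * tE = 1 := by
    apply Subtype.ext; exact Prod.ext ht5 ht5
  have ht : Φ tE * Φ tE = 1 := by rw [← map_mul, htE, map_one]
  have hx : Φ (mkE b0 1 sb0) * Φ (mkE b0 1 sb0) = 1 := by
    rw [← map_mul]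
    have : mkE b0 1 sb0 * mkE b0 1 sb0 = 1 := by
      apply Subtype.ext; exact Prod.ext hb0 (one_mul 1)
    rw [this, map_one]
  have hs : (g * Φ tE * g⁻¹) * (g * Φ tE * g⁻¹) = 1 := by
    calc (g * Φ tE * g⁻¹) * (g * Φ tE * g⁻¹) = g * (Φ tE * Φ tE) * g⁻¹ := by group
      _ = 1 := by rw [ht]; group
  have hsM : ∀ s : G, s = g * Φ tE * g⁻¹ → s ∉ MM h := by
    intro s hs' hsM
    rw [hs'] at hsM
    exact hg (h.fus g hsM)
  have hsM' := hsM _ rfl
  have key : ∀ j0 : G, (∀ y : G, y * j0 = j0 * y → y ∈ MM h) → ∀ m j : G, m ∈ MM h → m * j * m⁻¹ = j0 →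
      j * (g * Φ tE * g⁻¹) = (g * Φ tE * g⁻¹) * j → False := by
    intro j0 hj0 m j hm hj hc
    apply hsM'
    set s := g * Φ tE * g⁻¹ with hs0
    have h1 : (m * s * m⁻¹) * j0 = j0 * (m * s * m⁻¹) := by
      rw [← hj]
      calc m * s * m⁻¹ * (m * j * m⁻¹) = m * (s * j) * m⁻¹ := by group
        _ = m * (j * s) * m⁻¹ := by rw [hc]
        _ = _ := by group
    have h2 := hj0 _ h1
    have h3 : s = m⁻¹ * (m * s * m⁻¹) * m := by group
    rw [h3]
    exact mul_mem (mul_mem (inv_mem hm) h2) hm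
  have hnM : n ∈ MM h := Or.inr (by rw [h.nn]; exact one_mem _)
  have hEM : ∀ x : EE, Φ x ∈ MM h := fun x => Or.inl ⟨x, rfl⟩
  rcases dihe hs hx with ⟨c, hc⟩ | ⟨j, hj1, hj2, hjs, hjx⟩
  · have hcg : (c * g) * Φ tE * (c * g)⁻¹ = Φ (mkE b0 1 sb0) := by rw [← hc]; group
    have h1 := h.fus (c * g) (Or.inl (by rw [hcg]; exact ⟨_, rfl⟩))
    have hno : ∀ x : EE, Φ x * Φ tE * (Φ x)⁻¹ ≠ Φ (mkE b0 1 sb0) := by
      rintro ⟨⟨a, b⟩, hab⟩ he
      have he2 := conjE Φ (a := t5) (b := t5) rfl (c := a) (d := b) hab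
      have he3 : Φ (mkE (a * t5 * a⁻¹) (b * t5 * b⁻¹) (sgc rfl hab)) = Φ (mkE b0 1 sb0) := by
        rw [← he2]; exact he
      have he4 := h.inj he3
      have he5 : b * t5 * b⁻¹ = 1 := congrArg (fun y : EE => y.1.2) he4
      have he6 : t5 = 1 := by
        calc t5 = b⁻¹ * (b * t5 * b⁻¹) * b := by group
          _ = 1 := by rw [he5]; group
      exact absurd he6 (by decide +kernel)
    rcases h1 with ⟨x, hx1⟩ | ⟨x, hx1⟩
    · rw [← hx1] at hcg
      exact hno x hcg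
    · have hnt : n * Φ tE * n⁻¹ = Φ tE := h.nc t5 t5 rfl
      have hn : n⁻¹ = n := inv_eq_of_mul_eq_one_left h.nn
      apply hno x
      rw [hx1, ← hcg]
      calc c * g * n * Φ tE * (c * g * n)⁻¹ = c * g * (n * Φ tE * n⁻¹) * (c * g)⁻¹ := by group
        _ = _ := by rw [hnt]
  · obtain ⟨⟨⟨a, b⟩, hab⟩, rfl⟩ := hu j hjx
    have hab' : Perm.sign a = Perm.sign b := hab
    have hjj : (⟨(a, b), hab⟩ : EE) * ⟨(a, b), hab⟩ = 1 := h.inj (by rw [map_mul, hj2, map_one])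
    have ha : a * a = 1 := congrArg (fun y : EE => y.1.1) hjj
    have hb : b * b = 1 := congrArg (fun y : EE => y.1.2) hjj
    have hne : ¬ (a = 1 ∧ b = 1) := by
      rintro ⟨rfl, rfl⟩
      apply hj1
      exact map_one Φ
    have hU : ∀ y : G, y * Φ (mkE b0 1 sb0) = Φ (mkE b0 1 sb0) * y → y ∈ MM h := fun y hy => Or.inl (hu y hy)
    rcases inv5 a ha with ha1 | ⟨ha1, c, hc1, hc2⟩ | ⟨ha1, c, hc1, hc2⟩
    · rcases inv5 b hb with hb1 | ⟨hb1, d, hd1, hd2⟩ | ⟨hb1, d, hd1, hd2⟩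
      · exact hne ⟨ha1, hb1⟩
      · -- (1, double): conjugate by n and (d, d)
        subst ha1
        refine key _ hU (Φ (mkE d d rfl) * n) _ (mul_mem (hEM _) hnM) ?_ hjs
        have h3 : n * Φ ⟨((1 : Perm (Fin 5)), b), hab⟩ * n⁻¹ = Φ (mkE b 1 hab'.symm) := h.nc 1 b hab'
        calc Φ (mkE d d rfl) * n * Φ ⟨(1, b), hab⟩ * (Φ (mkE d d rfl) * n)⁻¹
            = Φ (mkE d d rfl) * (n * Φ ⟨(1, b), hab⟩ * n⁻¹) * (Φ (mkE d d rfl))⁻¹ := by group
          _ = Φ (mkE d d rfl) * Φ (mkE b 1 hab'.symm) * (Φ (mkE d d rfl))⁻¹ := by rw [h3]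
          _ = _ := by
            rw [conjE Φ]
            congr 1
            apply Subtype.ext
            exact Prod.ext hd2 (by show d * 1 * d⁻¹ = 1; group)
      · rw [ha1, hb1] at hab'
        exact absurd hab' (by decide +kernel)
    · rcases inv5 b hb with hb1 | ⟨hb1, d, hd1, hd2⟩ | ⟨hb1, d, hd1, hd2⟩
      · subst hb1
        refine key _ hU (Φ (mkE c c rfl)) _ (hEM _) ?_ hjs
        have := conjE Φ (a := a) (b := 1) hab' (c := c) (d := c) rfl
        refine this.trans ?_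
        congr 1
        apply Subtype.ext
        exact Prod.ext hc2 (by show c * 1 * c⁻¹ = 1; group)
      · refine key _ hw (Φ (mkE c d (hc1.trans hd1.symm))) _ (hEM _) ?_ hjs
        have := conjE Φ (a := a) (b := b) hab' (c := c) (d := d) (hc1.trans hd1.symm)
        refine this.trans ?_
        congr 1
        apply Subtype.ext
        exact Prod.ext hc2 hd2
      · rw [ha1, hb1] at hab'
        exact absurd hab' (by decide +kernel)
    · rcases inv5 b hb with hb1 | ⟨hb1, d, hd1, hd2⟩ | ⟨hb1, d, hd1, hd2⟩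
      · rw [ha1, hb1] at hab'
        exact absurd hab' (by decide +kernel)
      · rw [ha1, hb1] at hab'
        exact absurd hab' (by decide +kernel)
      · refine key (Φ tE) h.ct (Φ (mkE c d (hc1.trans hd1.symm))) _ (hEM _) ?_ hjs
        have := conjE Φ (a := a) (b := b) hab' (c := c) (d := d) (hc1.trans hd1.symm)
        refine this.trans ?_
        congr 1
        apply Subtype.ext
        exact Prod.ext hc2 hd2

end H9.RFin
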